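import Cfsg.Agent.H996.Eight.Cert

/-!
# The multiplicities `⟨χ, 1_{P_J}⟩` : the functions of the table (helper632, for S4879)

`t : Tab A j N m` : the table of `W_K \ W`, `K = {i | i ≠ j}`; all parameters equal `x`.

* `Rel t J s u` : the states `s`, `u` are in the same `J`-orbit;
* `psi t x a w u` : the average over `B` of the spherical function `a` at (`state of w.reverse`)`⁻¹ * B * u`;
* `EE`, `FJ` : `⟨χ, 1_{P_J}⟩` as a rational function of `x`.
-/

set_option autoImplicit false

namespace Cfsg.Agent.H632.LB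

open Cfsg.Agent.H967.Sph Cfsg.Agent.H996.Eight.Cert Cfsg.Agent.H64.Dl.Sph

variable {I : Type*} [Fintype I] [DecidableEq I] {A : I → I → ℤ} {j : I} {N m : ℕ} (t : Tab A j N m)

/-- the same `J`-orbit -/
def Rel (J : Set I) (s u : Fin N) : Prop := ∃ w : List I, (∀ i ∈ w, i ∈ J) ∧ u = w.foldl (fun b i => t.st i b) s

/-- one step of the recursion (from the state `s` to the state `st i s`) -/
def stp (x : ℕ) (i : I) (s : Fin N) (ψ : Fin N → ℚ) : Fin N → ℚ := fun u =>
  if t.vec s i < 0 then t.tau (fun _ => x) i ψ u - ((x : ℚ) - 1) * ψ u else (x : ℚ)⁻¹ * t.tau (fun _ => x) i ψ u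

/-- the state of the word `w.reverse` -/
def sR : List I → Fin N
  | [] => t.o
  | i :: w => t.st i (sR w)

/-- the function of the word `w.reverse` -/
def psiR (x : ℕ) (a : Fin m → ℚ) : List I → Fin N → ℚ
  | [] => fun u => a (t.cls u)
  | i :: w => stp t x i (sR t w) (psiR x a w)

/-- the function of the state `s` -/
def psi (x : ℕ) (a : Fin m → ℚ) (s : Fin N) : Fin N → ℚ := psiR t x a (t.path s).reverse

open Classical in
/-- the `J`-average at `s` -/
noncomputable def EE (x : ℕ) (wl : Fin N → ℕ) (a : Fin m → ℚ) (J : Set I) (s : Fin N) : ℚ :=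
  (∑ u, if Rel t J s u then (x : ℚ) ^ wl u * psi t x a s u else 0) / ∑ u, if Rel t J s u then (x : ℚ) ^ wl u else 0

/-- the multiplicity -/
noncomputable def FF (x : ℕ) (wl : Fin N → ℕ) (a : Fin m → ℚ) (J : Set I) : ℚ :=
  (∑ s, (x : ℚ) ^ wl s * EE t x wl a J s) / ∑ s, (x : ℚ) ^ wl s * a (t.cls s) ^ 2

/-- the multiplicity, for the spherical function `nu c / nu o` -/
noncomputable def FJ (wl : Fin N → ℕ) (nu : Fin m → List ℤ) (J : Set I) (x : ℕ) : ℚ :=
  FF t x wl (fun c => ev (x : ℚ) (nu c) / ev (x : ℚ) (nu (t.cls t.o))) J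

theorem sR_reverse (w : List I) : sR t w.reverse = w.foldl (fun b i => t.st i b) t.o := by
  have h1 : ∀ w : List I, sR t w = w.reverse.foldl (fun b i => t.st i b) t.o := by
    intro w
    induction w with
    | nil => rfl
    | cons i w ih => rw [sR, ih, List.reverse_cons, List.foldl_append, List.foldl_cons, List.foldl_nil]
  rw [h1, List.reverse_reverse]

theorem sR_path (s : Fin N) : sR t (t.path s).reverse = s := by
  rw [sR_reverse, t.path_spec]

end Cfsg.Agent.H632.LB
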