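import Cfsg.Agent.H739.PQ.E8L.Fun
import Cfsg.Agent.H996.PQ.Val
import Cfsg.Agent.H439.CC.Defs
import Cfsg.Agent.H632.LB.Def

/-!
# The multiplicities `⟨χ, 1_{P_J}⟩` : the kernel (helper632, for S4879)

* `kerfun` : the averages `∑_{b ∈ B} f (g b u⁻¹)` are given by a function `Ψ` of the two states, with the recursion of
  the operators of the table;
* `avgJ` : the average over `P_J` of a function of the state;
* `mu_eq` : `⟨χ, 1_{P_J}⟩ = FF`.
-/

set_option autoImplicit false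
set_option linter.unusedSectionVars false

namespace Cfsg.Agent.H632.LB

open Cfsg.Agent.H967.Sph Cfsg.Agent.H996.PQ Cfsg.Agent.H739.PQ.E8L
open Cfsg.Agent.H439.CC (mu)
open CoxeterSystem Cfsg.Agent.ChevalleyStructure.CoxeterGeom Cfsg.Agent.Tits.Roots Cfsg.Agent.Tits.Core
  Cfsg.Agent.Tits.Exchange Cfsg.Agent.Nodes.Reps Cfsg.Agent.Nodes.BNOf Cfsg.Agent.Nodes.Bruhat
  Cfsg.Agent.Nodes.LeviDec

universe u

variable {I W : Type*} {Y : Type u} [Fintype I] [DecidableEq I] [Group W] [Finite W] [Group Y] [Finite Y]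
    {M : CoxeterMatrix I} {cs : CoxeterSystem M W} {A : I → I → ℤ} {h : IsCartan M A} {p : ℕ} {T : Subgroup Y}
    {n : I → Y} {X : (I → ℤ) → Subgroup Y} (R : RGD cs h p T n X) (hG : GG cs h T X = ⊤)
    {j : I} {N m : ℕ} (t : Tab A j N m)

/-- every state is the state of an element -/
theorem exists_stY (s : Fin N) : ∃ g, stY R hG t g = s := by
  obtain ⟨w, hw⟩ := t.exists_sw cs h s
  obtain ⟨k, hk⟩ := exists_rp cs R.nsys w
  exact ⟨k, by rw [stY_eq R hG t (cell_of_rp hk), hw]⟩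

theorem stY_one : stY R hG t 1 = t.o := (stY_eq_o_iff R hG t).2 (one_mem _)

/-- the class function on the group -/
noncomputable def ff (a : Fin m → ℚ) (g : Y) : ℚ := a (t.cls (stY R hG t g))

theorem ff_left (a : Fin m → ℚ) {y : Y} (hy : y ∈ PJ cs h T X {i | i ≠ j}) (g : Y) :
    ff R hG t a (y * g) = ff R hG t a g := by
  unfold ff
  rw [stY_mul_left R hG t hy]

theorem ff_right (a : Fin m → ℚ) {y : Y} (hy : y ∈ PJ cs h T X {i | i ≠ j}) (g : Y) :
    ff R hG t a (g * y) = ff R hG t a g := by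
  unfold ff
  rw [cls_mul_right R hG t hy]

section Kern

variable [Fintype (RGD.B cs h T X)]

/-- the kernel -/
noncomputable def kk (a : Fin m → ℚ) (g u : Y) : ℚ := ∑ b : RGD.B cs h T X, ff R hG t a (g * b * u⁻¹)

theorem kk_left (a : Fin m → ℚ) {y : Y} (hy : y ∈ PJ cs h T X {i | i ≠ j}) (g u : Y) :
    kk R hG t a (y * g) u = kk R hG t a g u := by
  unfold kk
  refine Finset.sum_congr rfl fun b _ => ?_
  rw [mul_assoc, mul_assoc, ff_left R hG t a hy, ← mul_assoc]

theorem kk_right (a : Fin m → ℚ) {y : Y} (hy : y ∈ RGD.B cs h T X) (g u : Y) :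
    kk R hG t a (g * y) u = kk R hG t a g u := by
  unfold kk
  refine Fintype.sum_equiv (Equiv.mulLeft (⟨y, hy⟩ : RGD.B cs h T X)) _ _ fun b => ?_
  rw [Equiv.coe_mulLeft, Subgroup.coe_mul, ← mul_assoc]

theorem kk_left' (a : Fin m → ℚ) {y : Y} (hy : y ∈ PJ cs h T X {i | i ≠ j}) (g u : Y) :
    kk R hG t a g (y * u) = kk R hG t a g u := by
  unfold kk
  refine Finset.sum_congr rfl fun b _ => ?_
  rw [mul_inv_rev, ← mul_assoc, ff_right R hG t a (inv_mem hy)]

theorem kk_right' (a : Fin m → ℚ) {y : Y} (hy : y ∈ RGD.B cs h T X) (g u : Y) :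
    kk R hG t a g (u * y) = kk R hG t a g u := by
  unfold kk
  refine Fintype.sum_equiv (Equiv.mulRight (⟨y⁻¹, inv_mem hy⟩ : RGD.B cs h T X)) _ _ fun b => ?_
  rw [Equiv.coe_mulRight, Subgroup.coe_mul, mul_inv_rev]
  show ff R hG t a (g * b * (y⁻¹ * u⁻¹)) = ff R hG t a (g * (b * y⁻¹) * u⁻¹)
  simp only [mul_assoc]

/-- the kernel depends on the states only -/
theorem kk_congr (a : Fin m → ℚ) {g g' u u' : Y} (h1 : stY R hG t g = stY R hG t g')
    (h2 : stY R hG t u = stY R hG t u') : kk R hG t a g u = kk R hG t a g' u' := by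
  obtain ⟨ψ, hψ, -⟩ := exists_state_fun R hG t (fun g => kk R hG t a g u) (fun y hy g => kk_left R hG t a hy g u)
    (fun y hy g => kk_right R hG t a hy g u)
  obtain ⟨φ, hφ, -⟩ := exists_state_fun R hG t (fun u => kk R hG t a g' u) (fun y hy u => kk_left' R hG t a hy g' u)
    (fun y hy u => kk_right' R hG t a hy g' u)
  have h3 : kk R hG t a g u = ψ (stY R hG t g) := hψ g
  have h4 : kk R hG t a g' u = ψ (stY R hG t g') := hψ g'
  have h5 : kk R hG t a g' u = φ (stY R hG t u) := hφ u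
  have h6 : kk R hG t a g' u' = φ (stY R hG t u') := hφ u'
  rw [h3, h1, ← h4, h5, h2, ← h6]

include R in
/-- the square of `n i` is in `T` -/
theorem n_sq (i : I) : n i * n i ∈ T := by
  have h1 := (rp_simple cs R.nsys i).mul (rp_simple cs R.nsys i)
  rw [simple_mul_simple_self] at h1
  exact h1.mem_of_one

theorem X_le_B' (i : I) : X (sr i) ≤ RGD.B cs h T X := RGD.X_le_B (isRoot_sr cs h i) (sr_nonneg i)

variable {x : ℕ} (hq : ∀ i, Nat.card (X (sr i)) = x)

include hq in
/-- **the operators on the two variables of the kernel agree** -/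
theorem kk_symm (a : Fin m → ℚ) (i : I) (g u : Y) :
    opT X n i (fun g => kk R hG t a g u) g = opT X n i (fun u => kk R hG t a g u) u := by
  classical
  have := Fintype.ofFinite (X (sr i))
  have hB : (Fintype.card (RGD.B cs h T X) : ℚ) ≠ 0 := Nat.cast_ne_zero.2 Fintype.card_ne_zero
  have hcard : (Fintype.card (X (sr i)) : ℚ) = x := by rw [← hq i, Nat.card_eq_fintype_card]
  -- general: a right `B`-invariant function
  have key : ∀ F : Y → ℚ, (∀ y ∈ RGD.B cs h T X, ∀ g, F (g * y) = F g) →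
      (∀ y ∈ RGD.B cs h T X, ∀ g, opT X n i F (g * y) = opT X n i F g) → ∀ g,
      (Fintype.card (RGD.B cs h T X) : ℚ) * opT X n i F g = x * ∑ b : RGD.B cs h T X, F (g * b * n i) := by
    intro F hF hT g
    have h1 : ∑ b : RGD.B cs h T X, opT X n i F (g * b) = (Fintype.card (RGD.B cs h T X) : ℚ) * opT X n i F g := by
      rw [Finset.sum_congr rfl fun (b : RGD.B cs h T X) _ => hT b b.2 g, Finset.sum_const, Finset.card_univ, nsmul_eq_mul]
    have h2 : ∀ b : RGD.B cs h T X, opT X n i F (g * b) = ∑ z : X (sr i), F (g * b * z * n i) := fun b => by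
      rw [opT_apply, finsum_eq_sum_of_fintype]
    rw [← h1, Finset.sum_congr rfl fun b _ => h2 b, Finset.sum_comm]
    have h3 : ∀ z : X (sr i), ∑ b : RGD.B cs h T X, F (g * b * z * n i) = ∑ b : RGD.B cs h T X, F (g * b * n i) := by
      intro z
      refine Fintype.sum_equiv (Equiv.mulRight (⟨z, X_le_B' i z.2⟩ : RGD.B cs h T X)) _ _ fun b => ?_
      rw [Equiv.coe_mulRight, Subgroup.coe_mul]
      simp only [mul_assoc]
    rw [Finset.sum_congr rfl fun z _ => h3 z, Finset.sum_const, Finset.card_univ, nsmul_eq_mul, hcard]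
  -- the functions of the state
  obtain ⟨ψ, hψ, -⟩ := exists_state_fun R hG t (fun g => kk R hG t a g u) (fun y hy g => kk_left R hG t a hy g u)
    (fun y hy g => kk_right R hG t a hy g u)
  obtain ⟨φ, hφ, -⟩ := exists_state_fun R hG t (fun u => kk R hG t a g u) (fun y hy u => kk_left' R hG t a hy g u)
    (fun y hy u => kk_right' R hG t a hy g u)
  have hψ' : (fun g => kk R hG t a g u) = fun g => ψ (stY R hG t g) := funext hψ
  have hφ' : (fun u => kk R hG t a g u) = fun u => φ (stY R hG t u) := funext hφ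
  have h1 := key (fun g => kk R hG t a g u) (fun y hy g => kk_right R hG t a hy g u) (fun y hy g' => by
    rw [hψ', opT_stY R hG t (fun _ => x) hq i ψ]
    beta_reduce
    rw [stY_mul_right_B R hG t g' hy]) g
  have h2 := key (fun u => kk R hG t a g u) (fun y hy u => kk_right' R hG t a hy g u) (fun y hy g' => by
    rw [hφ', opT_stY R hG t (fun _ => x) hq i φ]
    beta_reduce
    rw [stY_mul_right_B R hG t g' hy]) u
  refine mul_left_cancel₀ hB ?_
  rw [h1, h2]
  congr 1
  -- the double sums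
  have h3 : ∀ b : RGD.B cs h T X, kk R hG t a (g * b * n i) u =
      ∑ b' : RGD.B cs h T X, ff R hG t a (g * b * n i * b' * u⁻¹) := fun _ => rfl
  have h4 : ∀ b : RGD.B cs h T X, kk R hG t a g (u * b * n i) =
      ∑ b' : RGD.B cs h T X, ff R hG t a (g * b' * (u * b * n i)⁻¹) := fun _ => rfl
  beta_reduce
  rw [Finset.sum_congr rfl fun b _ => h3 b, Finset.sum_congr rfl fun b _ => h4 b, Finset.sum_comm]
  conv_rhs => rw [Finset.sum_comm]
  rw [Finset.sum_comm]
  refine Finset.sum_congr rfl fun b _ => ?_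
  -- `b' ↦ (n i * n i)⁻¹ * b'⁻¹` type substitution
  refine Fintype.sum_equiv (Equiv.trans (Equiv.mulLeft (⟨n i * n i, RGD.T_le_B (n_sq R i)⟩ : RGD.B cs h T X))
    (Equiv.inv _)) _ _ fun b' => ?_
  rw [Equiv.trans_apply, Equiv.coe_mulLeft, Equiv.inv_apply, Subgroup.coe_inv, Subgroup.coe_mul]
  congr 1
  show g * b * n i * b' * u⁻¹ = g * b * (u * (n i * n i * b')⁻¹ * n i)⁻¹
  group

include hq in
/-- **the kernel as a function of the two states**, with the recursion of the table -/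
theorem exists_Psi (a : Fin m → ℚ) (hx : 1 ≤ x) : ∃ Ψ : Fin N → Fin N → ℚ,
    (∀ g u, kk R hG t a g u = (Fintype.card (RGD.B cs h T X) : ℚ) * Ψ (stY R hG t u) (stY R hG t g)) ∧
    (∀ s, Ψ t.o s = a (t.cls s)) ∧ ∀ i s, Ψ (t.st i s) = stp t x i s (Ψ s) := by
  classical
  have hB : (Fintype.card (RGD.B cs h T X) : ℚ) ≠ 0 := Nat.cast_ne_zero.2 Fintype.card_ne_zero
  have hx0 : (x : ℚ) ≠ 0 := Nat.cast_ne_zero.2 (by omega)
  choose r hr using fun s : Fin N => exists_stY R hG t s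
  have h1 : ∀ g u, kk R hG t a g u = (Fintype.card (RGD.B cs h T X) : ℚ) *
      ((Fintype.card (RGD.B cs h T X) : ℚ)⁻¹ * kk R hG t a (r (stY R hG t g)) (r (stY R hG t u))) := by
    intro g u
    rw [mul_inv_cancel_left₀ hB]
    exact kk_congr R hG t a (hr _).symm (hr _).symm
  obtain ⟨Ψ, hΨ⟩ : ∃ Ψ : Fin N → Fin N → ℚ, Ψ = fun s s' =>
      (Fintype.card (RGD.B cs h T X) : ℚ)⁻¹ * kk R hG t a (r s') (r s) := ⟨_, rfl⟩
  have h2 : ∀ g u, kk R hG t a g u = (Fintype.card (RGD.B cs h T X) : ℚ) * Ψ (stY R hG t u) (stY R hG t g) := by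
    rw [hΨ]
    exact h1
  refine ⟨Ψ, h2, fun s => ?_, fun i s => ?_⟩
  · have h3 := h2 (r s) 1
    rw [stY_one, hr] at h3
    have h4 : kk R hG t a (r s) 1 = (Fintype.card (RGD.B cs h T X) : ℚ) * a (t.cls s) := by
      unfold kk
      have h5 : ∀ b : RGD.B cs h T X, ff R hG t a (r s * b * 1⁻¹) = a (t.cls s) := fun b => by
        rw [inv_one, mul_one, ff_right R hG t a (B_le_PJ b.2)]
        unfold ff
        rw [hr]
      rw [Finset.sum_congr rfl fun b _ => h5 b, Finset.sum_const, Finset.card_univ, nsmul_eq_mul]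
    rw [h4] at h3
    exact (mul_left_cancel₀ hB h3).symm
  · funext s'
    have h3 := kk_symm R hG t hq a i (r s') (r s)
    have h4 : (fun g => kk R hG t a g (r s)) = fun g =>
        (fun v => (Fintype.card (RGD.B cs h T X) : ℚ) * Ψ s v) (stY R hG t g) := by
      funext g
      rw [h2, hr]
    have h5 : (fun u => kk R hG t a (r s') u) = fun u =>
        (fun v => (Fintype.card (RGD.B cs h T X) : ℚ) * Ψ v s') (stY R hG t u) := by
      funext u
      rw [h2, hr]
    rw [h4, h5] at h3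
    have h3' := h3
    have e1 := congrFun (opT_stY R hG t (fun _ => x) hq i fun v => (Fintype.card (RGD.B cs h T X) : ℚ) * Ψ s v) (r s')
    have e2 := congrFun (opT_stY R hG t (fun _ => x) hq i fun v => (Fintype.card (RGD.B cs h T X) : ℚ) * Ψ v s') (r s)
    beta_reduce at e1 e2
    rw [hr] at e1 e2
    have h3 := e1.symm.trans (h3'.trans e2)
    unfold stp
    have h6 : t.tau (fun _ => x) i (fun v => (Fintype.card (RGD.B cs h T X) : ℚ) * Ψ s v) s' =
        (Fintype.card (RGD.B cs h T X) : ℚ) * t.tau (fun _ => x) i (Ψ s) s' := by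
      unfold Tab.tau
      split_ifs <;> ring
    have h7 : t.tau (fun _ => x) i (fun v => (Fintype.card (RGD.B cs h T X) : ℚ) * Ψ v s') s =
        (Fintype.card (RGD.B cs h T X) : ℚ) * t.tau (fun _ => x) i (fun v => Ψ v s') s := by
      unfold Tab.tau
      split_ifs <;> ring
    rw [h6, h7] at h3
    have h8 := mul_left_cancel₀ hB h3
    split_ifs with h9
    · rw [h8]
      unfold Tab.tau
      rw [if_pos h9]
      ring
    · rw [h8]
      unfold Tab.tau
      rw [if_neg h9, inv_mul_cancel_left₀ hx0]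

end Kern

/-- the kernel is `psi` -/
theorem eq_psi {x : ℕ} (a : Fin m → ℚ) {Ψ : Fin N → Fin N → ℚ} (h0 : ∀ s, Ψ t.o s = a (t.cls s))
    (h1 : ∀ i s, Ψ (t.st i s) = stp t x i s (Ψ s)) (s : Fin N) : Ψ s = psi t x a s := by
  have key : ∀ w : List I, Ψ (sR t w) = psiR t x a w := by
    intro w
    induction w with
    | nil => exact funext h0
    | cons i w ih => rw [sR, h1, ih, psiR]
  have h2 := key (t.path s).reverse
  rw [sR_path] at h2
  exact h2

/-- **the average over `P_J` of a function of the state** -/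
theorem avgJ [Fintype Y] (J : Set I) [Fintype (PJ cs h T X J)] (ψ : Fin N → ℚ) : ∃ φ : Fin N → ℚ,
    (∀ u, ∑ z : PJ cs h T X J, ψ (stY R hG t (u * z)) = φ (stY R hG t u)) ∧
    (∀ i ∈ J, ∀ s, φ (t.st i s) = φ s) ∧ ∀ κ : Fin N → ℚ, (∀ i ∈ J, ∀ s, κ (t.st i s) = κ s) →
      ∑ s, κ s * φ s * cnt R hG t s = Fintype.card (PJ cs h T X J) * ∑ s, κ s * ψ s * cnt R hG t s := by
  classical
  obtain ⟨F, hF⟩ : ∃ F : Y → ℚ, F = fun u => ∑ z : PJ cs h T X J, ψ (stY R hG t (u * z)) := ⟨_, rfl⟩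
  have hr : ∀ y ∈ PJ cs h T X J, ∀ g, F (g * y) = F g := by
    intro y hy g
    rw [hF]
    refine Fintype.sum_equiv (Equiv.mulLeft (⟨y, hy⟩ : PJ cs h T X J)) _ _ fun z => ?_
    rw [Equiv.coe_mulLeft, Subgroup.coe_mul, ← mul_assoc]
  obtain ⟨φ, h1, h2⟩ := exists_state_fun R hG t F (fun y hy g => by
    rw [hF]
    refine Finset.sum_congr rfl fun z _ => ?_
    rw [mul_assoc, stY_mul_left R hG t hy]) (fun y hy g => hr y (B_le_PJ hy) g)
  refine ⟨φ, fun u => ?_, fun i hi s => ?_, fun κ hκ => ?_⟩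
  · rw [← h1, hF]
  · refine st_eq_of_right R hG t h2 (fun g => ?_) s
    exact hr _ (LJ_le_PJ (rp_mem_LJ R (simple_mem_WJ cs hi) (rp_simple cs R.nsys i))) g
  · rw [← sum_stY R hG t (fun s => κ s * φ s), ← sum_stY R hG t (fun s => κ s * ψ s)]
    have h3 : ∀ u, κ (stY R hG t u) * φ (stY R hG t u) =
        ∑ z : PJ cs h T X J, κ (stY R hG t (u * z)) * ψ (stY R hG t (u * z)) := by
      intro u
      rw [← h1, hF]
      beta_reduce
      rw [Finset.mul_sum]
      refine Finset.sum_congr rfl fun z _ => ?_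
      rw [mul_right_of_st R hG t hκ z.2]
    rw [Finset.sum_congr rfl fun u _ => h3 u, Finset.sum_comm]
    have h4 : ∀ z : PJ cs h T X J, ∑ u : Y, κ (stY R hG t (u * z)) * ψ (stY R hG t (u * z)) =
        ∑ u : Y, κ (stY R hG t u) * ψ (stY R hG t u) := fun z =>
      Equiv.sum_comp (Equiv.mulRight (z : Y)) fun u => κ (stY R hG t u) * ψ (stY R hG t u)
    rw [Finset.sum_congr rfl fun z _ => h4 z, Finset.sum_const, Finset.card_univ, nsmul_eq_mul]

theorem Rel.refl (J : Set I) (s : Fin N) : Rel t J s s := ⟨[], by simp, rfl⟩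

theorem Rel.inv_of {α : Type*} {J : Set I} {φ : Fin N → α} (hφ : ∀ i ∈ J, ∀ s, φ (t.st i s) = φ s) {s u : Fin N}
    (h1 : Rel t J s u) : φ u = φ s := by
  obtain ⟨w, hw, rfl⟩ := h1
  induction w generalizing s with
  | nil => rfl
  | cons i w ih => rw [List.foldl_cons, ih (fun k hk => hw k (by simp [hk])), hφ i (hw i (by simp))]

theorem Rel.step {J : Set I} {i : I} (hi : i ∈ J) (hst : ∀ s, t.st i (t.st i s) = s) (s u : Fin N) :
    Rel t J s (t.st i u) ↔ Rel t J s u := by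
  have h1 : ∀ u, Rel t J s u → Rel t J s (t.st i u) := by
    rintro u ⟨w, hw, rfl⟩
    refine ⟨w ++ [i], fun k hk => ?_, by rw [List.foldl_append]; rfl⟩
    rcases List.mem_append.1 hk with h2 | h2
    · exact hw k h2
    · rw [List.mem_singleton.1 h2]
      exact hi
  refine ⟨fun h2 => ?_, h1 u⟩
  have h3 := h1 _ h2
  rwa [hst] at h3

variable {x : ℕ}

open Classical in
/-- **The multiplicity of `χ` in `1_{P_J}`.** -/
theorem mu_eq (hx : 1 ≤ x) (hq : ∀ i, Nat.card (X (sr i)) = x) (wl : Fin N → ℕ) (hwo : wl t.o = 0)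
    (hws : ∀ i s, 0 < t.vec s i → wl (t.st i s) = wl s + 1) {χ : Y → ℂ} {d : ℕ} {a : Fin m → ℚ}
    (H : HasVal R hG t χ d a) (hd : (d : ℚ) * ∑ s, (x : ℚ) ^ wl s * a (t.cls s) ^ 2 = ∑ s, (x : ℚ) ^ wl s)
    (J : Set I) : mu (PJ cs h T X J) χ = ((FF t x wl a J : ℚ) : ℂ) := by
  have := Fintype.ofFinite Y
  have := Fintype.ofFinite (RGD.B cs h T X)
  have := Fintype.ofFinite (PJ cs h T X J)
  have hx0 : (0 : ℚ) < x := Nat.cast_pos.2 (by omega)
  have hB : (Fintype.card (RGD.B cs h T X) : ℚ) ≠ 0 := Nat.cast_ne_zero.2 Fintype.card_ne_zero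
  have hP : (Fintype.card (PJ cs h T X J) : ℚ) ≠ 0 := Nat.cast_ne_zero.2 Fintype.card_ne_zero
  obtain ⟨Ψ, hΨ1, hΨ2, hΨ3⟩ := exists_Psi R hG t hq a hx
  have hΨ : ∀ s, Ψ s = psi t x a s := eq_psi t a hΨ2 hΨ3
  choose φ hφ1 hφ2 hφ3 using fun s => avgJ R hG t J (psi t x a s)
  -- the numbers of elements
  have hcnt : ∀ s, cnt R hG t s = (x : ℚ) ^ wl s * cnt R hG t t.o := by
    intro s
    have h1 := cnt_eq R hG t (fun _ => x) hq (fun s => x ^ wl s) (by rw [hwo, pow_zero])
      (fun i s h2 => by rw [hws i s h2, pow_succ, mul_comm]) s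
    rw [h1]
    push_cast
    rfl
  have hc0 : cnt R hG t t.o ≠ 0 := by
    rw [cnt_o]
    exact Nat.cast_ne_zero.2 Nat.card_pos.ne'
  -- the average at `s`
  have hE : ∀ s, φ s s = Fintype.card (PJ cs h T X J) * EE t x wl a J s := by
    intro s
    have h1 := hφ3 s (fun u => if Rel t J s u then 1 else 0) (fun i hi u => by
      beta_reduce
      rw [if_congr (Rel.step t hi (fun v => Tab.st_st cs h t i v) s u) rfl rfl])
    have h2 : ∀ u, (if Rel t J s u then (1 : ℚ) else 0) * φ s u * cnt R hG t u =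
        φ s s * cnt R hG t t.o * if Rel t J s u then (x : ℚ) ^ wl u else 0 := by
      intro u
      split_ifs with h3
      · rw [Rel.inv_of t (hφ2 s) h3, hcnt u]
        ring
      · ring
    have h3 : ∀ u, (if Rel t J s u then (1 : ℚ) else 0) * psi t x a s u * cnt R hG t u =
        cnt R hG t t.o * if Rel t J s u then (x : ℚ) ^ wl u * psi t x a s u else 0 := by
      intro u
      split_ifs with h3
      · rw [hcnt u]
        ring
      · ring
    rw [Finset.sum_congr rfl fun u _ => h2 u, Finset.sum_congr rfl fun u _ => h3 u, ← Finset.mul_sum,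
      ← Finset.mul_sum] at h1
    have h4 : (∑ u, if Rel t J s u then (x : ℚ) ^ wl u else 0) ≠ 0 := by
      refine ne_of_gt (Finset.sum_pos' (fun u _ => ?_) ⟨s, Finset.mem_univ _, ?_⟩)
      · split_ifs
        · positivity
        · exact le_rfl
      · rw [if_pos (Rel.refl t J s)]
        positivity
    unfold EE
    rw [mul_div_assoc', eq_div_iff h4]
    refine mul_left_cancel₀ hc0 ?_
    linear_combination h1
  -- the sum over `z ∈ P_J` for fixed `u`
  have hS : ∀ u, ∑ z : PJ cs h T X J, ff R hG t a (u * z * u⁻¹) = φ (stY R hG t u) (stY R hG t u) := by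
    intro u
    have h1 : (Fintype.card (RGD.B cs h T X) : ℚ) * ∑ z : PJ cs h T X J, ff R hG t a (u * z * u⁻¹) =
        ∑ z : PJ cs h T X J, kk R hG t a (u * z) u := by
      have h2 : ∀ b : RGD.B cs h T X, ∑ z : PJ cs h T X J, ff R hG t a (u * z * b * u⁻¹) =
          ∑ z : PJ cs h T X J, ff R hG t a (u * z * u⁻¹) := by
        intro b
        refine Fintype.sum_equiv (Equiv.mulRight (⟨b, B_le_PJ b.2⟩ : PJ cs h T X J)) _ _ fun z => ?_
        rw [Equiv.coe_mulRight, Subgroup.coe_mul]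
        show ff R hG t a (u * z * b * u⁻¹) = ff R hG t a (u * (z * b) * u⁻¹)
        simp only [mul_assoc]
      unfold kk
      rw [Finset.sum_comm, Finset.sum_congr rfl fun b _ => h2 b, Finset.sum_const, Finset.card_univ, nsmul_eq_mul]
    have h2 : ∀ z : PJ cs h T X J, kk R hG t a (u * z) u =
        (Fintype.card (RGD.B cs h T X) : ℚ) * psi t x a (stY R hG t u) (stY R hG t (u * z)) := fun z => by
      rw [hΨ1, hΨ]
    rw [Finset.sum_congr rfl fun z _ => h2 z, ← Finset.mul_sum] at h1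
    rw [mul_left_cancel₀ hB h1, hφ1]
  -- the sum over `Y`
  have hY : ∑ u : Y, ∑ z : PJ cs h T X J, ff R hG t a (u * z * u⁻¹) =
      Fintype.card (PJ cs h T X J) * (cnt R hG t t.o * ∑ s, (x : ℚ) ^ wl s * EE t x wl a J s) := by
    rw [Finset.sum_congr rfl fun u _ => hS u, sum_stY R hG t (fun s => φ s s), Finset.mul_sum, Finset.mul_sum]
    refine Finset.sum_congr rfl fun s _ => ?_
    rw [hE, hcnt s]
    ring
  have hcard : (Nat.card Y : ℚ) = cnt R hG t t.o * ∑ s, (x : ℚ) ^ wl s := by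
    have h1 := sum_stY R hG t (fun _ => (1 : ℚ))
    rw [Finset.sum_const, Finset.card_univ, nsmul_eq_mul, mul_one] at h1
    rw [Nat.card_eq_fintype_card, h1, Finset.mul_sum]
    refine Finset.sum_congr rfl fun s _ => ?_
    rw [hcnt s]
    ring
  have hYc : (Nat.card Y : ℚ) ≠ 0 := Nat.cast_ne_zero.2 Nat.card_pos.ne'
  have hA : (∑ s, (x : ℚ) ^ wl s * a (t.cls s) ^ 2) ≠ 0 := by
    intro h0
    rw [h0, mul_zero] at hd
    rw [← hd, mul_zero] at hcard
    exact hYc hcard
  -- the character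
  have hχ : (Nat.card Y : ℂ) * ∑ z : PJ cs h T X J, χ z =
      d * ((∑ u : Y, ∑ z : PJ cs h T X J, ff R hG t a (u * z * u⁻¹) : ℚ) : ℂ) := by
    rw [Finset.mul_sum, Finset.sum_congr rfl fun (z : PJ cs h T X J) _ => H.val z, ← Finset.mul_sum, Finset.sum_comm]
    push_cast
    congr 1
    refine Finset.sum_congr rfl fun z _ => ?_
    rw [finsum_eq_sum_of_fintype]
    push_cast
    refine Fintype.sum_equiv (Equiv.inv Y) _ _ fun y => ?_
    rw [Equiv.inv_apply, inv_inv]
    rfl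
  rw [hY] at hχ
  unfold mu
  rw [finsum_eq_sum_of_fintype, Nat.card_eq_fintype_card]
  have hPc : (Fintype.card (PJ cs h T X J) : ℂ) ≠ 0 := Nat.cast_ne_zero.2 Fintype.card_ne_zero
  have hYc' : (Nat.card Y : ℂ) ≠ 0 := Nat.cast_ne_zero.2 Nat.card_pos.ne'
  have h9 : (Nat.card Y : ℚ) * FF t x wl a J = d * (cnt R hG t t.o * ∑ s, (x : ℚ) ^ wl s * EE t x wl a J s) := by
    unfold FF
    rw [mul_div_assoc', div_eq_iff hA, hcard, ← hd]
    ring
  have h10 : (Nat.card Y : ℂ) * ((FF t x wl a J : ℚ) : ℂ) =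
      d * ((cnt R hG t t.o * ∑ s, (x : ℚ) ^ wl s * EE t x wl a J s : ℚ) : ℂ) := by
    exact_mod_cast congrArg (fun v : ℚ => (v : ℂ)) h9
  refine mul_left_cancel₀ (mul_ne_zero hYc' hPc) ?_
  rw [mul_assoc, mul_inv_cancel_left₀ hPc, hχ]
  push_cast at h10 ⊢
  linear_combination -(Fintype.card (PJ cs h T X J) : ℂ) * h10

end Cfsg.Agent.H632.LB
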